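import Mathlib
import Cfsg.Agent.H364.Iso3_m3
import Cfsg.Agent.H364.UTorus
import Cfsg.Agent.Lib.Zsigmondy
import Cfsg.Agent.S0280
import Cfsg.Agent.Prune
set_option linter.all false
prune_inst 0x7f00000000000000000000000000000000000000000000000000000000000000000000000000000000000000000000000000000000000000000000000000000000000000000000000000000000000000003fffffffffffffffffffffffffffbeffbdffffffff
open scoped Cfsg.Agent.FastGrp

-- part: H364/ArithU3
section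
/-!
# Arithmetic for `PSU₃(q)` (helper364)
-/

set_option autoImplicit false

namespace Cfsg.Agent.H364.ArithU3

/-- the large case, `q = s + 1` -/
theorem big {s m d t a : ℕ} (hs : 11 ≤ s) (hd : d = 1 ∨ d = 3) (hd3 : d = 3 → 3 ∣ s + 2) (hm : m * d = s ^ 2 + s + 1)
    (ht : t.Prime) (ha : 0 < a) (hN : t ^ a ∣ s * (s + 2) ^ 2) (h1 : m ∣ t ^ a - 1) : False := by
  have hm3 : s ^ 2 + s + 1 ≤ 3 * m := by rcases hd with rfl | rfl <;> omega
  have hA2 : 2 ≤ t ^ a := ht.two_le.trans (Nat.le_self_pow ha.ne' t)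
  obtain ⟨j, hj⟩ := h1
  have hj0 : 0 < j := by
    rcases Nat.eq_zero_or_pos j with h | h
    · rw [h, mul_zero] at hj; omega
    · exact h
  have hA : t ^ a = m * j + 1 := by omega
  have hmA : m + 1 ≤ t ^ a := by
    rw [hA]
    have := Nat.le_mul_of_pos_right m hj0
    omega
  -- `t ^ a ≤ s`
  have c1 : ¬ t ^ a ≤ 4 * s := by
    intro h
    nlinarith only [hs, hm3, hmA, h]
  by_cases hts : t ∣ s + 2
  swap
  · have h2 : Nat.Coprime (t ^ a) ((s + 2) ^ 2) :=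
      Nat.Coprime.pow a 2 ((Nat.Prime.coprime_iff_not_dvd ht).2 hts)
    have h3 : t ^ a ∣ s := h2.dvd_of_dvd_mul_right hN
    have h4 := Nat.le_of_dvd (by omega) h3
    omega
  by_cases ht2 : t = 2
  swap
  · -- `t` is odd and divides `s + 2`
    have hts' : ¬ t ∣ s := by
      intro h
      have h2 : t ∣ 2 := (Nat.dvd_add_right h).1 hts
      exact ht2 ((Nat.prime_dvd_prime_iff_eq ht Nat.prime_two).1 h2)
    have h2 : Nat.Coprime (t ^ a) s := Nat.Coprime.pow_left a ((Nat.Prime.coprime_iff_not_dvd ht).2 hts')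
    obtain ⟨u, hu⟩ : t ^ a ∣ (s + 2) ^ 2 := h2.dvd_of_dvd_mul_left hN
    have hu0 : 0 < u := by
      rcases Nat.eq_zero_or_pos u with h | h
      · rw [h, mul_zero] at hu; linarith only [hs, hu, _root_.sq_nonneg (↑s : ℤ)]
      · exact h
    rw [hA] at hu
    -- `(m j + 1) u = (s + 2) ^ 2`
    have he : m * (j * u) + u = (s + 2) ^ 2 := by rw [hu]; ring
    have hju : u ≤ j * u := Nat.le_mul_of_pos_left u hj0
    rcases hd with rfl | rfl
    · rw [mul_one] at hm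
      rcases Nat.lt_or_ge (j * u) 2 with h | h
      · have h5 : j * u = 1 := by omega
        have h6 : u = 1 := by omega
        rw [h5, h6] at he
        linarith only [he, hm]
      · have : m * 2 ≤ m * (j * u) := Nat.mul_le_mul_left m h
        nlinarith only [hs, hu, hm, this]
    · rcases Nat.lt_or_ge (j * u) 4 with h | h
      · have h5 : m * (j * u) ≤ m * 3 := Nat.mul_le_mul_left m (by omega)
        linarith only [hs, hu, hju, hm, h, h5]
      · have : m * 4 ≤ m * (j * u) := Nat.mul_le_mul_left m h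
        nlinarith only [hs, hm3, hu, this]
  subst ht2
  -- `t = 2`, `s` even
  obtain ⟨c, v, hv, hcv⟩ := Nat.exists_eq_two_pow_mul_odd (n := s + 2) (by omega)
  have hc1 : 1 ≤ c := by
    rcases Nat.eq_zero_or_pos c with h | h
    · rw [h, pow_zero, one_mul] at hcv
      rw [hcv] at hts
      exact absurd (hv) (by rw [Nat.not_odd_iff_even]; exact even_iff_two_dvd.2 hts)
    · exact h
  by_cases hc : c = 1
  · subst hc
    -- `s + 2 = 2 v`
    have h2 : s * (s + 2) ^ 2 = 4 * s * v ^ 2 := by rw [hcv]; ring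
    rw [h2] at hN
    have h3 : Nat.Coprime (2 ^ a) (v ^ 2) := Nat.Coprime.pow a 2 hv.coprime_two_left
    have h4 : 2 ^ a ∣ 4 * s := h3.dvd_of_dvd_mul_right hN
    exact c1 (Nat.le_of_dvd (by omega) h4)
  · -- `4 ∣ s + 2`, `s = 2 w`, `w` odd
    have h4 : 4 ∣ s + 2 := by
      rw [hcv]
      exact ((pow_dvd_pow 2 (by omega : 2 ≤ c))).trans (Dvd.intro _ rfl)
    obtain ⟨w, hw⟩ : ∃ w, s = 2 * (2 * w + 1) := ⟨(s - 2) / 4, by (clear * - h4; omega)⟩
    have hwodd : Odd (2 * w + 1) := ⟨w, rfl⟩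
    have h5 : s * (s + 2) ^ 2 = 2 ^ (2 * c + 1) * ((2 * w + 1) * v ^ 2) := by
      calc s * (s + 2) ^ 2 = (2 * (2 * w + 1)) * (2 ^ c * v) ^ 2 := by rw [← hcv, ← hw]
        _ = 2 ^ (2 * c + 1) * ((2 * w + 1) * v ^ 2) := by ring
    rw [h5] at hN
    have h6 : Nat.Coprime (2 ^ a) ((2 * w + 1) * v ^ 2) :=
      Nat.Coprime.pow_left a (hwodd.mul hv.pow).coprime_two_left
    obtain ⟨u, hu⟩ : 2 ^ a ∣ 2 ^ (2 * c + 1) := h6.dvd_of_dvd_mul_right hN
    have hle : 2 ^ a ≤ 2 ^ (2 * c + 1) := Nat.le_of_dvd (by positivity) ⟨u, hu⟩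
    have h7 : 2 ^ (2 * c + 1) * v ^ 2 = 2 * (s + 2) ^ 2 := by
      rw [hcv]; ring
    by_cases hv1 : v = 1
    · subst hv1
      rw [mul_one] at hcv
      rw [one_pow, mul_one] at h7
      have hd1 : d = 1 := by
        rcases hd with h | h
        · exact h
        · exfalso
          have h8 := hd3 h
          rw [hcv] at h8
          have := Nat.prime_three.dvd_of_dvd_pow h8
          norm_num at this
      rw [hd1, mul_one] at hm
      have hu0 : 0 < u := by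
        rcases Nat.eq_zero_or_pos u with h | h
        · rw [h, mul_zero] at hu
          have : 0 < 2 ^ (2 * c + 1) := by positivity
          omega
        · exact h
      rw [h7, hA] at hu
      have he : m * (j * u) + u = 2 * (s + 2) ^ 2 := by rw [hu]; ring
      have hju : u ≤ j * u := Nat.le_mul_of_pos_left u hj0
      rcases Nat.lt_or_ge (j * u) 3 with h | h
      · have h5 : m * (j * u) ≤ m * 2 := Nat.mul_le_mul_left m (by omega)
        linarith only [hm, hu, hju, h, h5]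
      · have : m * 3 ≤ m * (j * u) := Nat.mul_le_mul_left m h
        nlinarith only [hs, hm, hu, this]
    · have hv3 : 3 ≤ v := by
        obtain ⟨k, hk⟩ := hv
        omega
      have h8 : 2 ^ a * 9 ≤ 2 * (s + 2) ^ 2 := by
        rw [← h7]
        calc 2 ^ a * 9 ≤ 2 ^ (2 * c + 1) * 9 := Nat.mul_le_mul_right 9 hle
          _ ≤ 2 ^ (2 * c + 1) * v ^ 2 := Nat.mul_le_mul_left _ (Nat.pow_le_pow_left hv3 2)
      have h9 : 11 * s ≤ s ^ 2 := by rw [pow_two]; exact Nat.mul_le_mul_right s hs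
      have h10 : 2 * (s + 2) ^ 2 = 2 * s ^ 2 + 8 * s + 8 := by ring
      (clear * - hm3 hmA c1 h8 h10; omega)

theorem small_table : ∀ s ∈ Finset.Icc 2 10, ∀ A ∈ (s * (s + 2) ^ 2).divisors,
    ((s ^ 2 + s + 1) / Nat.gcd 3 (s + 2)) ∣ A - 1 → A = 1 ∨ A = 36 ∨ (A = 8 ∧ (s = 2 ∨ s = 4)) := by
  decide +kernel

theorem gcd_cases (s : ℕ) : (Nat.gcd 3 (s + 2) = 1 ∨ Nat.gcd 3 (s + 2) = 3) ∧
    (Nat.gcd 3 (s + 2) = 3 → 3 ∣ s + 2) ∧ (s ^ 2 + s + 1) / Nat.gcd 3 (s + 2) * Nat.gcd 3 (s + 2) = s ^ 2 + s + 1 := by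
  refine ⟨?_, fun h => h ▸ Nat.gcd_dvd_right 3 (s + 2), ?_⟩
  · exact (Nat.dvd_prime Nat.prime_three).1 (Nat.gcd_dvd_left 3 (s + 2))
  · apply Nat.div_mul_cancel
    rcases (Nat.dvd_prime Nat.prime_three).1 (Nat.gcd_dvd_left 3 (s + 2)) with h | h
    · rw [h]; exact one_dvd _
    · have h3 : 3 ∣ s + 2 := h ▸ Nat.gcd_dvd_right 3 (s + 2)
      rw [h]
      obtain ⟨k, hk⟩ := h3
      obtain ⟨l, hl⟩ : ∃ l, s = 3 * l + 1 := ⟨k - 1, by omega⟩
      rw [hl]
      exact ⟨3 * l ^ 2 + 3 * l + 1, by ring⟩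

theorem arith {s t a : ℕ} (hs : 2 ≤ s) (ht : t.Prime) (ha : 0 < a) (hN : t ^ a ∣ s * (s + 2) ^ 2)
    (h1 : ((s ^ 2 + s + 1) / Nat.gcd 3 (s + 2)) ∣ t ^ a - 1) : t = 2 ∧ a = 3 ∧ (s = 2 ∨ s = 4) := by
  obtain ⟨hd, hd3, hm⟩ := gcd_cases s
  rcases Nat.lt_or_ge s 11 with h | h
  · have hA2 : 2 ≤ t ^ a := ht.two_le.trans (Nat.le_self_pow ha.ne' t)
    have h2 : t ∣ t ^ a := dvd_pow_self t ha.ne'
    rcases small_table s (Finset.mem_Icc.2 ⟨hs, by omega⟩) (t ^ a) (Nat.mem_divisors.2 ⟨hN, by positivity⟩) h1 with h3 | h3 | ⟨h3, h4⟩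
    · omega
    · exfalso
      have h5 : 2 ∣ t := Nat.prime_two.dvd_of_dvd_pow (n := a) (h3 ▸ (by norm_num))
      have h6 : 3 ∣ t := Nat.prime_three.dvd_of_dvd_pow (n := a) (h3 ▸ (by norm_num))
      have h7 := (Nat.prime_dvd_prime_iff_eq Nat.prime_two ht).1 h5
      have h8 := (Nat.prime_dvd_prime_iff_eq Nat.prime_three ht).1 h6
      omega
    · have h5 : 2 ∣ t := Nat.prime_two.dvd_of_dvd_pow (n := a) (h3 ▸ (by norm_num))
      have h7 := (Nat.prime_dvd_prime_iff_eq Nat.prime_two ht).1 h5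
      subst h7
      have h8 : a = 3 := Nat.pow_right_injective (le_refl 2) (by simpa using h3)
      exact ⟨rfl, h8, h4⟩
  · exact (big h hd hd3 hm ht ha hN h1).elim

end Cfsg.Agent.H364.ArithU3
end

-- part: H364/PSUThree
section
/-!
# Groups with the order and the element orders of `PSU₃(q)`, `q ≥ 3` (helper364)
-/

set_option autoImplicit false

namespace Cfsg.Agent.H364.PSUThree

open Subgroup Cfsg Cfsg.Agent.H364 Cfsg.Agent.H364.Unitary Cfsg.Agent.H364.ArithU3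

/-- the order of the Hall subgroup, `q = s + 1` -/
def mm (s : ℕ) : ℕ := (s ^ 2 + s + 1) / Nat.gcd 3 (s + 2)

theorem mm_mul (s : ℕ) : mm s * Nat.gcd 3 (s + 2) = s ^ 2 + s + 1 := (gcd_cases s).2.2

theorem mm_cop_three (s : ℕ) : ¬ 3 ∣ mm s := by
  intro h
  obtain ⟨hd, hd3, hm⟩ := gcd_cases s
  rw [← mm] at hm
  rcases hd with h1 | h1
  · rw [h1, mul_one] at hm
    rw [hm] at h
    -- `s ^ 2 + s + 1 ≡ 0 mod 3` forces `s ≡ 1`
    have h2 : ¬ 3 ∣ s + 2 := by
      intro h3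
      have := Nat.dvd_gcd (dvd_refl 3) h3
      rw [h1] at this
      norm_num at this
    have h3 : s % 3 = 0 ∨ s % 3 = 2 := by omega
    have h4 : (s ^ 2 + s + 1) % 3 = 0 := Nat.mod_eq_zero_of_dvd h
    rcases h3 with h3 | h3 <;> · simp only [Nat.add_mod, Nat.pow_mod, h3, _root_.ne_eq, _root_.OfNat.ofNat_ne_zero, _root_.not_false_eq_true, _root_.zero_pow, _root_.Nat.zero_mod, _root_.add_zero, _root_.Nat.one_mod, _root_.zero_add, _root_.one_ne_zero, _root_.Nat.reducePow, _root_.Nat.reduceMod, _root_.Nat.reduceAdd, _root_.Nat.mod_self] at h4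
  · rw [h1] at hm
    have h3 := hd3 h1
    obtain ⟨l, hl⟩ : ∃ l, s = 3 * l + 1 := by
      obtain ⟨k, hk⟩ := h3
      exact ⟨k - 1, by omega⟩
    obtain ⟨c, hc⟩ := h
    rw [hc, hl] at hm
    have h5 : 3 * c = 3 * l ^ 2 + 3 * l + 1 := by
      have : 3 * (3 * c) = 3 * (3 * l ^ 2 + 3 * l + 1) := by linarith only [hm]
      omega
    omega

theorem mm_odd (s : ℕ) : ¬ 2 ∣ mm s := by
  intro h
  have h1 : 2 ∣ s ^ 2 + s + 1 := by
    rw [← mm_mul]
    exact h.mul_right _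
  rcases Nat.even_or_odd s with ⟨k, hk⟩ | ⟨k, hk⟩
  · rw [hk] at h1
    have : (k + k) ^ 2 + (k + k) + 1 = 2 * (2 * k ^ 2 + k) + 1 := by ring
    omega
  · rw [hk] at h1
    have : (2 * k + 1) ^ 2 + (2 * k + 1) + 1 = 2 * (2 * k ^ 2 + 3 * k + 1) + 1 := by ring
    omega

theorem one_lt_mm {s : ℕ} (hs : 2 ≤ s) : 1 < mm s := by
  have h1 := mm_mul s
  have h2 : Nat.gcd 3 (s + 2) ≤ 3 := Nat.gcd_le_left _ (by norm_num)
  by_contra h
  have h3 : mm s * Nat.gcd 3 (s + 2) ≤ 1 * 3 := Nat.mul_le_mul (by omega) h2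
  nlinarith

/-- primes dividing `mm s` -/
theorem ord_eq {s r : ℕ} (hr : r.Prime) (h : r ∣ mm s) : orderOf (-((s + 1 : ℕ) : ZMod r)) = 3 := by
  have := Fact.mk hr
  have h3 : Fact (Nat.Prime 3) := ⟨Nat.prime_three⟩
  have h1 : r ∣ s ^ 2 + s + 1 := by
    rw [← mm_mul]
    exact h.mul_right _
  have h2 : ((s : ZMod r)) ^ 2 + s + 1 = 0 := by
    have := (ZMod.natCast_eq_zero_iff (s ^ 2 + s + 1) r).2 h1
    push_cast at this
    exact this
  apply orderOf_eq_prime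
  · push_cast
    linear_combination (-(s : ZMod r) - 2) * h2
  · intro h4
    push_cast at h4
    have h5 : (s : ZMod r) = -2 := by linear_combination -h4
    rw [h5] at h2
    have h6 : ((3 : ℕ) : ZMod r) = 0 := by push_cast; linear_combination h2
    have h7 := (ZMod.natCast_eq_zero_iff 3 r).1 h6
    have h8 := (Nat.prime_dvd_prime_iff_eq hr Nat.prime_three).1 h7
    subst h8
    exact mm_cop_three s h

theorem sg_three (s : ℕ) : (sg (s + 1) 3).natAbs = s ^ 2 + s + 1 := by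
  have h : sg (s + 1) 3 = ((s ^ 2 + s + 1 : ℕ) : ℤ) := by
    rw [sg, Finset.sum_range_succ, Finset.sum_range_succ, Finset.sum_range_succ, Finset.sum_range_zero]
    push_cast
    ring
  rw [h, Int.natAbs_natCast]

theorem torus_eq (s : ℕ) : ((s + 1) ^ 3 + 1) / (s + 1 + 1) = s ^ 2 + s + 1 := by
  have : (s + 1) ^ 3 + 1 = (s ^ 2 + s + 1) * (s + 1 + 1) := by ring
  rw [this, Nat.mul_div_cancel _ (by omega)]

variable {F : Type*} [Field F] [Fintype F] {s : ℕ}

theorem ne_zero_of_dvd_mm (hF : Fintype.card F = (s + 1) ^ 2) {r : ℕ} (hr : r.Prime) (h : r ∣ mm s) :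
    (r : F) ≠ 0 := by
  obtain ⟨p, k, hp, hchar, hq, hk⟩ := Cfsg.Agent.LieClassical.HermBasic.exists_prime_pow hF
  rw [Ne, CharP.cast_eq_zero_iff F p]
  intro h1
  have h2 := (Nat.prime_dvd_prime_iff_eq hp hr).1 h1
  subst h2
  have h3 : p ∣ s + 1 := by rw [hq]; exact dvd_pow_self p hk.ne'
  have h4 : p ∣ s ^ 2 + s + 1 := by
    rw [← mm_mul]
    exact h.mul_right _
  have h5 : s ^ 2 + s + 1 = s * (s + 1) + 1 := by ring
  rw [h5] at h4
  have h6 : p ∣ 1 := (Nat.dvd_add_right (h3.mul_left s)).1 h4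
  exact hp.one_lt.ne' (Nat.dvd_one.1 h6)

/-- the order of elements of `PSU₃` -/
theorem orderOf_dvd_mm (hF : Fintype.card F = (s + 1) ^ 2) {r : ℕ} (hr : r.Prime) (h : r ∣ mm s)
    {x : PSU 3 F (s + 1)} (hx : r ∣ orderOf x) : orderOf x ∣ mm s := by
  have h1 := psu_orderOf_dvd hF hr (ne_zero_of_dvd_mm hF hr h) (by norm_num) le_rfl (ord_eq hr h) hx
  rwa [sg_three] at h1

theorem exists_orderOf_mm (hF : Fintype.card F = (s + 1) ^ 2) (hs : 2 ≤ s) :
    ∃ x : PSU 3 F (s + 1), orderOf x = mm s := by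
  obtain ⟨x, hx⟩ := UTorus.exists_psu_orderOf hF (n := 3) (by decide) le_rfl
  rw [torus_eq, ← mm_mul] at hx
  have hd : 0 < Nat.gcd 3 (s + 1 + 1) := Nat.gcd_pos_of_pos_left _ (by norm_num)
  have h1 : mm s ∣ orderOf x := Nat.dvd_of_mul_dvd_mul_right hd hx
  obtain ⟨r, hr, hrm⟩ := Nat.exists_prime_and_dvd (one_lt_mm hs).ne'
  exact ⟨x, Nat.dvd_antisymm (orderOf_dvd_mm hF hr hrm (hrm.trans h1)) h1⟩

theorem card_psu (hF : Fintype.card F = (s + 1) ^ 2) :
    Nat.card (PSU 3 F (s + 1)) = (s + 1) ^ 3 * (s * (s + 2) ^ 2) * mm s := by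
  have h := Cfsg.Agent.S0280.result hF 3 (by norm_num)
  rw [Finset.prod_range_succ, Finset.prod_range_succ, Finset.prod_range_succ, Finset.prod_range_zero] at h
  have h1 : Even 0 := by decide
  have h2 : ¬ Even 1 := by decide
  have h3 : Even 2 := by decide
  rw [if_pos h1, if_neg h2, if_pos h3] at h
  have h4 : (s + 1) ^ (1 + 1) - 1 = s * (s + 2) := by
    have : (s + 1) ^ (1 + 1) = s * (s + 2) + 1 := by ring
    omega
  rw [h4] at h
  have hd : 0 < Nat.gcd 3 (s + 1 + 1) * (s + 1 + 1) :=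
    Nat.mul_pos (Nat.gcd_pos_of_pos_left _ (by norm_num)) (by omega)
  apply Nat.eq_of_mul_eq_mul_left hd
  have h5 := mm_mul s
  calc Nat.gcd 3 (s + 1 + 1) * (s + 1 + 1) * Nat.card (PSU 3 F (s + 1))
      = Nat.gcd 3 (s + 1 + 1) * ((s + 1 + 1) * Nat.card (PSU 3 F (s + 1))) := by ring
    _ = (s + 1) ^ (3 * (3 - 1) / 2) * (1 * ((s + 1) ^ (0 + 1) + 1) * (s * (s + 2)) * ((s + 1) ^ (2 + 1) + 1)) := h
    _ = (s + 1) ^ 3 * ((s + 2) ^ 2 * (s * (s + 2))) * (s ^ 2 + s + 1) := by norm_num; ring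
    _ = Nat.gcd 3 (s + 1 + 1) * (s + 1 + 1) * ((s + 1) ^ 3 * (s * (s + 2) ^ 2) * mm s) := by
      rw [← h5, show s + 1 + 1 = s + 2 by ring]; ring

end Cfsg.Agent.H364.PSUThree
end

private theorem dce_6ef0025ae46d : _root_.True := by
  try have : _root_.True := by simp only [_root_.Cfsg.Agent.H364.PSUThree.mm.eq_1]
  exact _root_.True.intro
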